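import Mathlib

/-!
# Simple groups of operators on a plane over a field and `PSL(2, K)` (helper946, for S3679)

`V` a `K`-space of dimension `2`, `ρ : H → End_K(V)`, `α : H → S` onto a non-abelian simple group, `α h = 1` for
`ρ h = 1`, and `ρ h` is a scalar for `α h = 1`.  Then `S` embeds in `PSL(2, K)` (`exists_psl`), and if the image is
`PSL(2, K)` and `ξ ∈ K`, `ξ² ≠ 1`, then a biadditive function on `V` invariant under `ρ H` and `ξ` is `0` (`form_zero`).
-/

set_option autoImplicit false

namespace Cfsg.Agent.H946.DK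

open Module Matrix
open scoped commutatorElement

section psl

variable {K : Type*} [Field K] {V : Type*} [AddCommGroup V] [Module K V] {H S : Type*} [Group H] [Group S]

/-- the matrices of the elements of the derived group -/
noncomputable def toSL (b : Basis (Fin 2) K V) (ρ : H →* Module.End K V) :
    ↥(commutator H) →* SpecialLinearGroup (Fin 2) K where
  toFun h := ⟨LinearMap.toMatrix b b (ρ h), by
    rw [LinearMap.det_toMatrix]
    have h1 := Abelianization.commutator_subset_ker (((LinearMap.det : Module.End K V →* K).comp ρ).toHomUnits) h.2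
    exact congrArg Units.val (MonoidHom.mem_ker.1 h1)⟩
  map_one' := by
    apply Subtype.ext
    show LinearMap.toMatrix b b (ρ 1) = 1
    rw [map_one]
    exact LinearMap.toMatrix_one b
  map_mul' := fun g h => by
    apply Subtype.ext
    show LinearMap.toMatrix b b (ρ (g * h)) = LinearMap.toMatrix b b (ρ g) * LinearMap.toMatrix b b (ρ h)
    rw [map_mul]
    exact LinearMap.toMatrix_mul b _ _

theorem coe_toSL (b : Basis (Fin 2) K V) (ρ : H →* Module.End K V) (h : ↥(commutator H)) :
    ((toSL b ρ h : SpecialLinearGroup (Fin 2) K) : Matrix (Fin 2) (Fin 2) K) = LinearMap.toMatrix b b (ρ h) := rfl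

theorem toLin_toSL (b : Basis (Fin 2) K V) (ρ : H →* Module.End K V) (h : ↥(commutator H)) :
    Matrix.toLin b b (toSL b ρ h : SpecialLinearGroup (Fin 2) K) = ρ h := by
  rw [coe_toSL]
  exact Matrix.toLin_toMatrix b b _

theorem scalar_iff (b : Basis (Fin 2) K V) (ρ : H →* Module.End K V) (h : ↥(commutator H)) :
    toSL b ρ h ∈ Subgroup.center (SpecialLinearGroup (Fin 2) K) ↔ ∃ c : K, ρ h = c • 1 := by
  rw [Matrix.SpecialLinearGroup.mem_center_iff]
  constructor
  · rintro ⟨c, -, hc⟩
    refine ⟨c, ?_⟩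
    rw [← toLin_toSL b ρ h, ← hc]
    apply (LinearMap.toMatrix b b).injective
    rw [LinearMap.toMatrix_toLin, map_smul, LinearMap.toMatrix_one]
    ext i j
    simp [Matrix.scalar_apply, Matrix.diagonal, Matrix.one_apply, Matrix.smul_apply]
  · rintro ⟨c, hc⟩
    have h1 : ((toSL b ρ h : SpecialLinearGroup (Fin 2) K) : Matrix (Fin 2) (Fin 2) K) = Matrix.scalar (Fin 2) c := by
      rw [coe_toSL, hc, map_smul, LinearMap.toMatrix_one]
      ext i j
      simp [Matrix.scalar_apply, Matrix.diagonal, Matrix.one_apply, Matrix.smul_apply]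
    refine ⟨c, ?_, h1.symm⟩
    have h2 := (toSL b ρ h).det_coe
    rw [h1, Matrix.scalar_apply, Matrix.det_diagonal, Finset.prod_const, Finset.card_univ] at h2
    exact h2

/-- **embedding in `PSL(2, K)`** -/
theorem exists_psl [IsSimpleGroup S] (hna : ¬ ∀ a b : S, a * b = b * a) (b : Basis (Fin 2) K V)
    (ρ : H →* Module.End K V) (α : H →* S) (hα : Function.Surjective α)
    (h1 : ∀ h, ρ h = 1 → α h = 1) (h2 : ∀ h, α h = 1 → ∃ c : K, ρ h = c • 1) :
    ∃ ψ : S →* ProjectiveSpecialLinearGroup (Fin 2) K, Function.Injective ψ ∧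
      ∀ A : SpecialLinearGroup (Fin 2) K, (QuotientGroup.mk A : ProjectiveSpecialLinearGroup (Fin 2) K) ∈ ψ.range →
        ∃ (h : H) (c : K), c ^ 2 = 1 ∧ Matrix.toLin b b A = c • ρ h := by
  -- the derived group
  have hcen : ∀ s : S, (∀ t : S, s * t = t * s) → s = 1 := by
    intro s hs
    have hc : Subgroup.center S = ⊥ := by
      rcases (inferInstance : (Subgroup.center S).Normal).eq_bot_or_eq_top with h | h
      · exact h
      · exact absurd (fun a c => (Subgroup.mem_center_iff.1 (h ▸ Subgroup.mem_top c : c ∈ Subgroup.center S) a)) hna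
    rw [← Subgroup.mem_bot, ← hc, Subgroup.mem_center_iff]
    exact fun t => (hs t).symm
  have hcomm : commutator S = ⊤ := by
    rcases (inferInstance : (commutator S).Normal).eq_bot_or_eq_top with h | h
    · exfalso
      apply hna
      intro a c
      have h3 : ⁅a, c⁆ ∈ commutator S := Subgroup.commutator_mem_commutator (Subgroup.mem_top _) (Subgroup.mem_top _)
      rw [h, Subgroup.mem_bot, commutatorElement_eq_one_iff_mul_comm] at h3
      exact h3
    · exact h
  set D := commutator H with hD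
  set β : ↥D →* S := α.comp D.subtype with hβ
  have hβs : Function.Surjective β := by
    intro s
    have h3 : s ∈ commutator S := by rw [hcomm]; trivial
    have h4 : commutator S = D.map α := by
      rw [hD, commutator_def, commutator_def, Subgroup.map_commutator, ← MonoidHom.range_eq_map,
        MonoidHom.range_eq_top.2 hα]
    rw [h4] at h3
    obtain ⟨d, hd, rfl⟩ := h3
    exact ⟨⟨d, hd⟩, rfl⟩
  set ψ₀ : ↥D →* ProjectiveSpecialLinearGroup (Fin 2) K :=
    (QuotientGroup.mk' (Subgroup.center (SpecialLinearGroup (Fin 2) K))).comp (toSL b ρ) with hψ₀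
  have hker : ∀ d : ↥D, β d = 1 ↔ ψ₀ d = 1 := by
    intro d
    have e1 : ψ₀ d = 1 ↔ toSL b ρ d ∈ Subgroup.center (SpecialLinearGroup (Fin 2) K) :=
      QuotientGroup.eq_one_iff (toSL b ρ d)
    rw [e1, scalar_iff]
    constructor
    · exact fun h => h2 _ h
    · rintro ⟨c, hc⟩
      apply hcen
      intro t
      obtain ⟨h, rfl⟩ := hα t
      have h3 : ρ ((d : H) * h * (d : H)⁻¹ * h⁻¹) = 1 := by
        have h4 : Commute (ρ d) (ρ h) := by
          rw [hc]
          exact (Commute.one_left _).smul_left c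
        have h5 : (d : H) * h * (d : H)⁻¹ * h⁻¹ = ((d : H) * h) * (h * d)⁻¹ := by group
        rw [h5, map_mul, map_mul, h4.eq, ← map_mul, ← map_mul, mul_inv_cancel, map_one]
      have h6 := h1 _ h3
      rw [map_mul, map_mul, map_mul, map_inv, map_inv, mul_inv_eq_one, mul_inv_eq_iff_eq_mul] at h6
      exact h6
  have hle : β.ker ≤ ψ₀.ker := fun d hd => MonoidHom.mem_ker.2 ((hker d).1 (MonoidHom.mem_ker.1 hd))
  obtain ⟨ψ, hψ⟩ : ∃ ψ : S →* ProjectiveSpecialLinearGroup (Fin 2) K, ∀ d, ψ (β d) = ψ₀ d := by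
    refine ⟨β.liftOfRightInverse _ (Function.rightInverse_surjInv hβs) ⟨ψ₀, hle⟩, fun d => ?_⟩
    exact MonoidHom.liftOfRightInverse_comp_apply β _ (Function.rightInverse_surjInv hβs) ⟨ψ₀, hle⟩ d
  refine ⟨ψ, ?_, ?_⟩
  · rw [injective_iff_map_eq_one]
    intro s hs
    obtain ⟨d, rfl⟩ := hβs s
    rw [hψ] at hs
    exact (hker d).2 hs
  · rintro A ⟨s, hs⟩
    obtain ⟨d, rfl⟩ := hβs s
    rw [hψ] at hs
    have h3 : (QuotientGroup.mk (toSL b ρ d) : ProjectiveSpecialLinearGroup (Fin 2) K) = QuotientGroup.mk A := hs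
    rw [QuotientGroup.eq, Matrix.SpecialLinearGroup.mem_center_iff] at h3
    obtain ⟨c, hc, hcA⟩ := h3
    rw [Fintype.card_fin] at hc
    refine ⟨d, c, hc, ?_⟩
    have h4 : A = toSL b ρ d * ((toSL b ρ d)⁻¹ * A) := by group
    have h5 : (A : Matrix (Fin 2) (Fin 2) K) = (toSL b ρ d : SpecialLinearGroup (Fin 2) K) *
        Matrix.scalar (Fin 2) c := by
      rw [hcA]
      exact congrArg Subtype.val h4
    rw [h5, ← toLin_toSL b ρ d]
    apply (LinearMap.toMatrix b b).injective
    rw [LinearMap.toMatrix_toLin, map_smul, LinearMap.toMatrix_toLin]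
    ext i j
    simp [Matrix.scalar_apply, Matrix.smul_apply, Matrix.mul_diagonal, mul_comm]

end psl

section form

variable {K : Type*} [Field K] {V : Type*} [AddCommGroup V] [Module K V] {C : Type*} [AddCommGroup C]
  {B : V → V → C} (hl : ∀ u v w, B (u + v) w = B u w + B v w) (hr : ∀ u v w, B w (u + v) = B w u + B w v)

include hl in
theorem B_zero_left (w : V) : B 0 w = 0 := by
  have := hl 0 0 w
  rw [add_zero] at this
  exact left_eq_add.1 this

include hr in
theorem B_zero_right (w : V) : B w 0 = 0 := by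
  have := hr 0 0 w
  rw [add_zero] at this
  exact left_eq_add.1 this

include hl in
theorem B_neg_left (u w : V) : B (-u) w = - B u w := by
  have := hl u (-u) w
  rw [add_neg_cancel, B_zero_left hl] at this
  exact (neg_eq_of_add_eq_zero_right this.symm).symm

include hr in
theorem B_neg_right (u w : V) : B w (-u) = - B w u := by
  have := hr u (-u) w
  rw [add_neg_cancel, B_zero_right hr] at this
  exact (neg_eq_of_add_eq_zero_right this.symm).symm

include hl hr in
/-- **an invariant form is zero** -/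
theorem form_zero (b : Basis (Fin 2) K V) (hA : ∀ A : SpecialLinearGroup (Fin 2) K, ∀ u v,
      B (Matrix.toLin b b A u) (Matrix.toLin b b A v) = B u v) {ξ : K} (hξ0 : ξ ≠ 0) (hξ : ξ ^ 2 ≠ 1)
    (hx : ∀ u v, B (ξ • u) (ξ • v) = B u v) (u v : V) : B u v = 0 := by
  have hLin : ∀ (A : SpecialLinearGroup (Fin 2) K) (i : Fin 2) (a : K), Matrix.toLin b b A (a • b i) =
      (A 0 i * a) • b 0 + (A 1 i * a) • b 1 := by
    intro A i a
    rw [map_smul, Matrix.toLin_self, Fin.sum_univ_two, smul_add, smul_smul, smul_smul, mul_comm a, mul_comm a]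
  have hξ1 : ξ ^ 2 - 1 ≠ 0 := sub_ne_zero.2 hξ
  let D : SpecialLinearGroup (Fin 2) K := ⟨!![ξ, 0; 0, ξ⁻¹], by simp [Matrix.det_fin_two, hξ0]⟩
  have hD0 : ∀ a : K, Matrix.toLin b b D (a • b 0) = (ξ * a) • b 0 := by
    intro a
    rw [hLin]
    simp [D]
  have hD1 : ∀ a : K, Matrix.toLin b b D (a • b 1) = (ξ⁻¹ * a) • b 1 := by
    intro a
    rw [hLin]
    simp [D]
  have h01 : ∀ a c : K, B (a • b 0) (c • b 1) = 0 := by
    intro a c
    have key : ∀ a' : K, B ((ξ ^ 2 * a') • b 0) (c • b 1) = B (a' • b 0) (c • b 1) := by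
      intro a'
      rw [← hA D (a' • b 0) (c • b 1), hD0, hD1, ← hx ((ξ * a') • b 0), smul_smul, smul_smul]
      congr 2
      · ring
      · rw [← mul_assoc, mul_inv_cancel₀ hξ0, one_mul]
    have h1 := key ((ξ ^ 2 - 1)⁻¹ * a)
    have h2 : (ξ ^ 2 * ((ξ ^ 2 - 1)⁻¹ * a)) • b 0 = a • b 0 + ((ξ ^ 2 - 1)⁻¹ * a) • b 0 := by
      rw [← add_smul]
      congr 1
      field_simp
      ring
    rw [h2, hl] at h1
    exact add_eq_right.1 h1
  have h10 : ∀ a c : K, B (c • b 1) (a • b 0) = 0 := by
    intro a c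
    have key : ∀ a' : K, B (c • b 1) ((ξ ^ 2 * a') • b 0) = B (c • b 1) (a' • b 0) := by
      intro a'
      rw [← hA D (c • b 1) (a' • b 0), hD0, hD1, ← hx ((ξ⁻¹ * c) • b 1), smul_smul, smul_smul]
      congr 2
      · rw [← mul_assoc, mul_inv_cancel₀ hξ0, one_mul]
      · ring
    have h1 := key ((ξ ^ 2 - 1)⁻¹ * a)
    have h2 : (ξ ^ 2 * ((ξ ^ 2 - 1)⁻¹ * a)) • b 0 = a • b 0 + ((ξ ^ 2 - 1)⁻¹ * a) • b 0 := by
      rw [← add_smul]
      congr 1
      field_simp
      ring
    rw [h2, hr] at h1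
    exact add_eq_right.1 h1
  let U : SpecialLinearGroup (Fin 2) K := ⟨!![1, 0; 1, 1], by simp [Matrix.det_fin_two]⟩
  let U' : SpecialLinearGroup (Fin 2) K := ⟨!![1, 1; 0, 1], by simp [Matrix.det_fin_two]⟩
  have h11 : ∀ a c : K, B (a • b 1) (c • b 1) = 0 := by
    intro a c
    have h1 := hA U (a • b 0) (c • b 0)
    have hU : ∀ a : K, Matrix.toLin b b U (a • b 0) = a • b 0 + a • b 1 := by
      intro a
      rw [hLin]
      simp [U]
    rw [hU, hU, hl, hr, hr, h01, h10, add_zero, zero_add] at h1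
    exact add_eq_left.1 h1
  have h00 : ∀ a c : K, B (a • b 0) (c • b 0) = 0 := by
    intro a c
    have h1 := hA U' (a • b 1) (c • b 1)
    have hU : ∀ a : K, Matrix.toLin b b U' (a • b 1) = a • b 0 + a • b 1 := by
      intro a
      rw [hLin]
      simp [U']
    rw [hU, hU, hl, hr, hr, h01, h10, add_zero, zero_add] at h1
    exact add_eq_right.1 h1
  rw [← b.sum_repr u, ← b.sum_repr v, Fin.sum_univ_two, Fin.sum_univ_two, hl, hr, hr, h00, h01, h10, h11]
  simp

end form

end Cfsg.Agent.H946.DK
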