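import Cfsg.Agent.H946.DK.Lin
import Cfsg.Agent.H946.DK.Psl

/-!
# The plane over `F[x]` (helper946, for S3679)

`exists_plane` : `x` fixed point free of odd prime order `r` on `V`, `dim V = 2 n`, `n = ord_r(q)`, `H` a group of
operators commuting with `x`, `S` a non-abelian simple quotient of `H` with scalar kernel: `S` embeds in `PSL(2, K)`,
`|K| = q ^ n`, and the image is proper if there is a non-zero biadditive function invariant under `x` and `H`.
-/

set_option autoImplicit false

namespace Cfsg.Agent.H946.DK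

open Module Polynomial Cfsg.Agent.H951

variable {F : Type*} [Field F] {V : Type*} [AddCommGroup V] [Module F V] {x : Module.End F V}

theorem aeval_eq_zero_of_mem {g : F[X]} (hg : aeval x g = 0) (P : F[X]) (hP : P ∈ Ideal.span {g}) :
    aeval x P = 0 := by
  obtain ⟨c, rfl⟩ := Ideal.mem_span_singleton'.1 hP
  rw [map_mul, hg, mul_zero]

/-- the action of `F[X] / (g)` -/
noncomputable def act {g : F[X]} (hg : aeval x g = 0) : AdjoinRoot g →+* Module.End F V :=
  Ideal.Quotient.lift (Ideal.span {g}) (aeval x : F[X] →ₐ[F] Module.End F V).toRingHom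
    (aeval_eq_zero_of_mem hg)

theorem act_mk {g : F[X]} (hg : aeval x g = 0) (P : F[X]) : act hg (AdjoinRoot.mk g P) = aeval x P := rfl

theorem act_of {g : F[X]} (hg : aeval x g = 0) (c : F) : act hg (algebraMap F (AdjoinRoot g) c) = algebraMap F _ c := by
  have h : algebraMap F (AdjoinRoot g) c = AdjoinRoot.mk g (C c) := rfl
  rw [h, act_mk, aeval_C]

theorem exists_plane [FiniteDimensional F V] [Fintype F] {r n : ℕ} [hrp : Fact r.Prime] (hr2 : r ≠ 2) (hr : (r : F) ≠ 0)
    (hx : x ^ r = 1) (hf : fx x = ⊥) (hn : orderOf (Fintype.card F : ZMod r) = n) (hn0 : 0 < n)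
    (hV : finrank F V = 2 * n) {H S : Type*} [Group H] [Group S] [IsSimpleGroup S] (hna : ¬ ∀ a b : S, a * b = b * a)
    (ρ : H →* Module.End F V) (hρx : ∀ h, Commute (ρ h) x) (α : H →* S) (hα : Function.Surjective α)
    (h1 : ∀ h, ρ h = 1 → α h = 1) (h2 : ∀ h, α h = 1 → ∃ c : F, ρ h = c • 1)
    {C : Type*} [AddCommGroup C] {B : V → V → C} (hl : ∀ u v w, B (u + v) w = B u w + B v w)
    (hr' : ∀ u v w, B w (u + v) = B w u + B w v) (hB : ∃ u v, B u v ≠ 0)
    (hBρ : ∀ h u v, B (ρ h u) (ρ h v) = B u v) (hBx : ∀ u v, B (x u) (x v) = B u v) :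
    ∃ g : F[X], ∃ _ : Fact (Irreducible g), ∃ _ : Fintype (AdjoinRoot g),
      Fintype.card (AdjoinRoot g) = Fintype.card F ^ n ∧
      ∃ ψ : S →* Matrix.ProjectiveSpecialLinearGroup (Fin 2) (AdjoinRoot g), Function.Injective ψ ∧ ψ.range ≠ ⊤ := by
  rcases cyclic_or_homog hr hx hf hn hn0 hV with ⟨v, hv⟩ | ⟨g, hg, hgn, hxg⟩
  · exfalso
    apply hna
    intro a b
    obtain ⟨a, rfl⟩ := hα a
    obtain ⟨b, rfl⟩ := hα b
    have h3 : Commute (ρ a) (ρ b) := commute_of_cyclic hv (hρx a) (hρx b)
    have h4 : ρ ((a * b) * (b * a)⁻¹) = 1 := by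
      rw [map_mul, map_mul, h3.eq, ← map_mul, ← map_mul, mul_inv_cancel, map_one]
    have h5 := h1 _ h4
    rw [map_mul, map_inv, mul_inv_eq_one, map_mul, map_mul] at h5
    exact h5
  have hgf : Fact (Irreducible g) := ⟨hg⟩
  have hfin : Module.Finite F (AdjoinRoot g) := (AdjoinRoot.powerBasis hg.ne_zero).finite
  have hfK : Finite (AdjoinRoot g) := Module.finite_of_finite F
  letI : Fintype (AdjoinRoot g) := Fintype.ofFinite _
  have hdim : finrank F (AdjoinRoot g) = n := by
    rw [(AdjoinRoot.powerBasis hg.ne_zero).finrank, AdjoinRoot.powerBasis_dim, hgn]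
  refine ⟨g, hgf, inferInstance, ?_, ?_⟩
  · rw [Module.card_eq_pow_finrank (K := F) (V := AdjoinRoot g), hdim]
  letI : Module (AdjoinRoot g) V := Module.compHom V (act hxg)
  have hsmul : ∀ (P : F[X]) (v : V), (AdjoinRoot.mk g P) • v = aeval x P v := fun P v => rfl
  have htower : IsScalarTower F (AdjoinRoot g) V := by
    refine ⟨fun c k v => ?_⟩
    show act hxg (c • k) v = c • act hxg k v
    rw [Algebra.smul_def, map_mul, act_of, Module.End.mul_apply, Module.algebraMap_end_apply]
  have hK2 : finrank (AdjoinRoot g) V = 2 := by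
    have h3 := Module.finrank_mul_finrank F (AdjoinRoot g) V
    rw [hdim, hV, mul_comm 2] at h3
    exact Nat.eq_of_mul_eq_mul_left hn0 h3
  have hfinK : Module.Finite (AdjoinRoot g) V := Module.finite_of_finrank_pos (by rw [hK2]; norm_num)
  let b : Basis (Fin 2) (AdjoinRoot g) V := Module.finBasisOfFinrankEq _ _ hK2
  let ρK : H →* Module.End (AdjoinRoot g) V :=
    { toFun := fun h =>
        { toFun := fun v => ρ h v
          map_add' := fun u v => map_add _ _ _
          map_smul' := fun k v => by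
            obtain ⟨P, rfl⟩ := AdjoinRoot.mk_surjective k
            exact aeval_comm (hρx h) P v }
      map_one' := LinearMap.ext fun v => by
        show ρ 1 v = v
        rw [map_one]; rfl
      map_mul' := fun a b => LinearMap.ext fun v => by
        show ρ (a * b) v = ρ a (ρ b v)
        rw [map_mul]; rfl }
  have hρK : ∀ h v, ρK h v = ρ h v := fun h v => rfl
  obtain ⟨ψ, hψ, hψ2⟩ := exists_psl hna b ρK α hα
    (fun h hh => h1 h (LinearMap.ext fun v => by
      rw [← hρK, hh]; rfl))
    (fun h hh => by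
      obtain ⟨c, hc⟩ := h2 h hh
      refine ⟨AdjoinRoot.mk g (Polynomial.C c), LinearMap.ext fun v => ?_⟩
      show ρ h v = AdjoinRoot.mk g (Polynomial.C c) • v
      rw [hsmul, aeval_C, hc]; rfl)
  refine ⟨ψ, hψ, fun htop => ?_⟩
  obtain ⟨u, v, huv⟩ := hB
  apply huv
  have hξ : ∀ v : V, AdjoinRoot.root g • v = x v := fun v => by
    show AdjoinRoot.mk g X • v = x v
    rw [hsmul, aeval_X]
  have hnt : Nontrivial V := by
    rw [← Module.finrank_pos_iff (R := F)]
    omega
  obtain ⟨w, hw⟩ := exists_ne (0 : V)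
  have hxw : ∀ v : V, x v = v → v = 0 := fun v hv => by
    rw [← Submodule.mem_bot F, ← hf]
    exact mem_fx.2 hv
  refine form_zero hl hr' b ?_ (ξ := AdjoinRoot.root g) ?_ ?_ (fun u v => by rw [hξ, hξ, hBx]) u v
  · intro A u v
    obtain ⟨h, c, hc, hA⟩ := hψ2 A (by rw [htop]; trivial)
    rw [hA, LinearMap.smul_apply, LinearMap.smul_apply]
    rcases mul_self_eq_one_iff.1 ((pow_two c).symm.trans hc) with rfl | rfl
    · rw [one_smul, one_smul]
      exact hBρ h u v
    · rw [neg_smul, neg_smul, one_smul, one_smul, B_neg_left hl, B_neg_right hr', neg_neg]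
      exact hBρ h u v
  · intro h0
    apply hw
    have h3 : x w = 0 := by rw [← hξ, h0, zero_smul]
    have h4 : (x ^ r) w = 0 := by
      obtain ⟨k, hk⟩ := Nat.exists_eq_succ_of_ne_zero hrp.out.ne_zero
      rw [hk, pow_succ, Module.End.mul_apply, h3, map_zero]
    rwa [hx] at h4
  · intro h0
    apply hw
    apply hxw
    have h3 : ∀ v, (x ^ 2) v = v := fun v => by
      rw [pow_two, Module.End.mul_apply, ← hξ, ← hξ, smul_smul, ← pow_two, h0, one_smul]
    obtain ⟨k, hk⟩ := hrp.out.odd_of_ne_two hr2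
    have h4 : (x ^ r) w = w := by rw [hx]; rfl
    rw [hk, pow_succ, Module.End.mul_apply, pow_mul] at h4
    have h5 : ∀ (j : ℕ) v, ((x ^ 2) ^ j) v = v := by
      intro j
      induction j with
      | zero => intro v; rfl
      | succ j ih => intro v; rw [pow_succ, Module.End.mul_apply, h3, ih]
    rwa [h5] at h4

end Cfsg.Agent.H946.DK
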