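import Mathlib

/-!
# Normal `r'`-subgroups of cyclic and dihedral groups (helper946)
-/

set_option autoImplicit false

namespace Cfsg.Agent.H946.DK

/-- a normal subgroup of a dihedral group of order prime to an odd prime divisor of `k` has order dividing `k` -/
theorem dihedral_normal {k r : ℕ} (hr : r.Prime) (hr2 : r ≠ 2) (hk : k ≠ 0) (hrk : r ∣ k) (N : Subgroup (DihedralGroup k))
    (hN : N.Normal) (h : ¬ r ∣ Nat.card N) : Nat.card N ∣ k := by
  have hk' : NeZero k := ⟨hk⟩
  have hr3 : 3 ≤ r := by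
    have := hr.two_le
    omega
  have hk3 : 2 < k := lt_of_lt_of_le (by omega) (Nat.le_of_dvd (Nat.pos_of_ne_zero hk) hrk)
  -- no reflections
  have hno : ∀ i : ZMod k, DihedralGroup.sr i ∉ N := by
    intro i hi
    apply h
    have h1 := hN.conj_mem _ hi (DihedralGroup.r 1)
    have h2 := N.mul_mem (N.inv_mem hi) h1
    have h3 : (DihedralGroup.sr i)⁻¹ * (DihedralGroup.r 1 * DihedralGroup.sr i * (DihedralGroup.r 1)⁻¹) =
        (DihedralGroup.r (-2 : ZMod k) : DihedralGroup k) := by
      simp only [DihedralGroup.inv_r, DihedralGroup.inv_sr, DihedralGroup.r_mul_sr, DihedralGroup.sr_mul_r,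
        DihedralGroup.sr_mul_sr]
      congr 1
      ring
    rw [h3] at h2
    have h4 : (DihedralGroup.r (2 : ZMod k) : DihedralGroup k) ∈ N := by
      have h5 := N.inv_mem h2
      simpa using h5
    have h5 : orderOf (DihedralGroup.r (2 : ZMod k) : DihedralGroup k) ∣ Nat.card N := by
      have h6 := orderOf_dvd_natCard (⟨_, h4⟩ : N)
      rwa [← Subgroup.orderOf_coe] at h6
    refine dvd_trans ?_ h5
    have hval : (2 : ZMod k).val = 2 := by
      have := ZMod.val_natCast_of_lt hk3
      simpa using this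
    rw [DihedralGroup.orderOf_r, hval]
    have h6 : r ∣ k / k.gcd 2 * k.gcd 2 := by rwa [Nat.div_mul_cancel (Nat.gcd_dvd_left k 2)]
    rcases (Nat.Prime.dvd_mul hr).1 h6 with h7 | h7
    · exact h7
    · exact absurd ((Nat.prime_dvd_prime_iff_eq hr Nat.prime_two).1 (h7.trans (Nat.gcd_dvd_right k 2))) hr2
  let f : Multiplicative (ZMod k) →* DihedralGroup k :=
    { toFun := fun i => DihedralGroup.r (Multiplicative.toAdd i)
      map_one' := rfl
      map_mul' := fun a b => by simp }
  have hle : N ≤ f.range := by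
    intro x hx
    rcases x with i | i
    · exact ⟨Multiplicative.ofAdd i, rfl⟩
    · exact absurd hx (hno i)
  have h1 := Subgroup.card_dvd_of_le hle
  refine h1.trans ((Subgroup.card_range_dvd f).trans ?_)
  rw [Nat.card_congr Multiplicative.toAdd, Nat.card_zmod]

/-- the same for a group which is cyclic of order `k` or dihedral of order `2 k` -/
theorem normal_dvd {X : Type*} [Group X] [Finite X] {k r : ℕ} (hr : r.Prime) (hr2 : r ≠ 2) (hk : k ≠ 0)
    (h : (IsCyclic X ∧ Nat.card X = k) ∨ Nonempty (X ≃* DihedralGroup k)) (hrX : r ∣ Nat.card X)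
    (N : Subgroup X) (hN : N.Normal) (hrN : ¬ r ∣ Nat.card N) : Nat.card N ∣ k := by
  rcases h with ⟨-, h⟩ | ⟨⟨e⟩⟩
  · rw [← h]
    exact N.card_subgroup_dvd_card
  · have h1 : Nat.card (N.map e.toMonoidHom) = Nat.card N := Subgroup.card_map_of_injective e.injective
    rw [← h1]
    rw [Nat.card_congr e.toEquiv, DihedralGroup.nat_card] at hrX
    refine dihedral_normal hr hr2 hk ?_ _ (hN.map e.toMonoidHom e.surjective) (by rwa [h1])
    rcases (Nat.Prime.dvd_mul hr).1 hrX with h2 | h2
    · exact absurd ((Nat.prime_dvd_prime_iff_eq hr Nat.prime_two).1 h2) hr2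
    · exact h2

end Cfsg.Agent.H946.DK
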