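import Cfsg.Agent.H899.Cyc.Fac
import Cfsg.Agent.H946.DK.Grp
import Cfsg.Agent.H946.DK.Num
import Cfsg.Agent.S0252

/-!
# The kill of the special factorizations in case (II) (helper946, S3679)

`T = A M`, `A ≅ S × S`, `S = PSL(2, E)`, `|E|² = q ^ n`, `q = p ^ f` (or `S = A₅`, `r = 5`), `r` a primitive prime of
`p ^ (n f) - 1`, no element of order `r` of `A ∩ M` has a trivial coordinate.
* `kill1` : `|T : M| m = q ^ n (q ^ n - 1)`, `m ∣ 2 f d` is impossible (`T = PSp_2n(q)`, `Ω_2n+1(q)`,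
  `soc M = PΩ⁻_2n(q)`, `m = |M : soc M|`, `d = (2, q - 1)`);
* `kill2` : `|T : M| d m = q ^ (n - 1) (q ^ n - 1)`, `m ∣ d f` is impossible (`T = PΩ⁺_2n(q)`, `soc M = Ω_2n-1(q)`,
  `PSp_2n-2(q)`).
-/

set_option autoImplicit false

namespace Cfsg.Agent.H946.DK

open Matrix Cfsg.Agent.ClassicalGeometry Cfsg.Agent.H436 Cfsg.Agent.H899.CG

/-- the alternative of `dk_lin` -/
def Alt (p f n r : ℕ) (S : Type*) [Group S] : Prop :=
  (∃ (E : Type) (_ : Field E) (_ : Fintype E), Fintype.card E ^ 2 = p ^ (n * f) ∧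
      Nonempty (S ≃* Matrix.ProjectiveSpecialLinearGroup (Fin 2) E)) ∨
    (r = 5 ∧ Nonempty (S ≃* alternatingGroup (Fin 5)))

variable {T : Type*} [Group T] [Finite T] {A M : Subgroup T} {S : Type*} [Group S] [Finite S]

/-- the intersection, numbers -/
theorem card_mul_eq (h : Fac T A M S 2) : M.index * Nat.card ↥(M.subgroupOf A) = Nat.card S ^ 2 := by
  have h1 := h.card_mul
  rw [h.card_eq] at h1
  have h2 : Nat.card (M.subgroupOf A) = Nat.card (A ⊓ M : Subgroup T) := by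
    have h8 : (M.subgroupOf A).map A.subtype = A ⊓ M := by
      rw [Subgroup.subgroupOf_map_subtype, inf_comm]
    rw [← h8, Subgroup.card_map_of_injective A.subtype_injective]
  have h3 := M.card_mul_index
  rw [h2]
  have h4 : Nat.card M * (M.index * Nat.card (A ⊓ M : Subgroup T)) = Nat.card M * Nat.card S ^ 2 := by
    calc _ = Nat.card M * M.index * Nat.card (A ⊓ M : Subgroup T) := by ring
      _ = _ := by rw [h3, h1]; ring
  exact Nat.eq_of_mul_eq_mul_left Nat.card_pos h4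

/-- the alternatives for the intersection -/
theorem card_inter [IsSimpleGroup S] (h : Fac T A M S 2) {p N r : ℕ} (hp : p.Prime) (hN : 2 ≤ N)
    (hr : Prim p (2 * N) r) (hrS : r ∣ Nat.card S) {E : Type*} [Field E] [Fintype E] (hE : Fintype.card E = p ^ N)
    (e : S ≃* ProjectiveSpecialLinearGroup (Fin 2) E) (eA : A ≃* (Fin 2 → S))
    (hno : ∀ x : A, (x : T) ∈ M → orderOf x = r → eA x 0 ≠ 1 ∧ eA x 1 ≠ 1) {X m : ℕ} (hX : ¬ r ∣ X)
    (hTM : M.index * m = X * ((p ^ N) ^ 2 - 1)) :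
    Nat.card ↥(M.subgroupOf A) = Nat.card S ∨
      Nat.card ↥(M.subgroupOf A) ∣ 2 * ((p ^ N + 1) / Nat.gcd 2 (p ^ N - 1)) ^ 2 ∨
      (r = 5 ∧ Nat.card ↥(M.subgroupOf A) = 60) := by
  have hrp := hr.prime
  have hr2 := prim_lt hp.two_le (by omega) hr
  have hq4 : 4 ≤ p ^ N := by
    have h1 : 2 ^ 2 ≤ p ^ N := (Nat.pow_le_pow_left hp.two_le 2).trans (Nat.pow_le_pow_right hp.pos (by omega))
    omega
  have hm1 : ¬ r ∣ p ^ N - 1 := by
    rw [hr.dvd_iff]
    intro h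
    have := Nat.le_of_dvd (by omega) h
    omega
  have hp1 : r ∣ p ^ N + 1 := by
    have h1 : r ∣ p ^ (2 * N) - 1 := hr.dvd dvd_rfl
    rw [mul_comm, pow_mul, sq_sub_one] at h1
    exact ((Nat.Prime.dvd_mul hrp).1 h1).resolve_left hm1
  have hS : Nat.card S * Nat.gcd 2 (p ^ N - 1) = p ^ N * ((p ^ N) ^ 2 - 1) := by
    rw [Nat.card_congr e.toEquiv, ← hE]
    exact PSL2Basic.card_PSL2_gcd E
  have hd : ¬ r ∣ Nat.gcd 2 (p ^ N - 1) := by
    intro h
    have h1 := Nat.le_of_dvd (by norm_num) (h.trans (Nat.gcd_dvd_left _ _))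
    omega
  have hrD : r ∣ Nat.card ↥(M.subgroupOf A) :=
    r_dvd hrp (by omega) hp1 (hr.not_dvd_pow N) hm1 hd hS hX hTM (card_mul_eq h)
  let f : Fin 2 → (↥(M.subgroupOf A) →* S) := fun i =>
    (Pi.evalMonoidHom (fun _ : Fin 2 => S) i).comp (eA.toMonoidHom.comp (M.subgroupOf A).subtype)
  have hf : ∀ i (d : ↥(M.subgroupOf A)), f i d = eA (d : A) i := fun i d => rfl
  have hker : ∀ i, ¬ r ∣ Nat.card (f i).ker := by
    intro i hi
    have : Fact r.Prime := ⟨hrp⟩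
    obtain ⟨x, hx⟩ := exists_prime_orderOf_dvd_card' (G := (f i).ker) r hi
    have h1 : orderOf ((x : ↥(M.subgroupOf A)) : A) = r := by
      rw [Subgroup.orderOf_coe, Subgroup.orderOf_coe, hx]
    have h2 : eA ((x : ↥(M.subgroupOf A)) : A) i = 1 := by
      rw [← hf]
      exact MonoidHom.mem_ker.1 x.2
    have h3 := hno ((x : ↥(M.subgroupOf A)) : A) (Subgroup.mem_subgroupOf.1 (x : ↥(M.subgroupOf A)).2) h1
    fin_cases i
    · exact h3.1 h2
    · exact h3.2 h2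
  refine dk_grp' hp hE hN hr e hrS (f 0) (f 1) ?_ (hker 0) (hker 1) hrD
  intro d h0 h1
  rw [hf] at h0 h1
  apply Subtype.ext
  apply eA.injective
  rw [Subgroup.coe_one, map_one]
  funext i
  fin_cases i
  · exact h0
  · exact h1

/-- the field from the alternative -/
theorem Alt.exists_field {p f n r : ℕ} (hp : p.Prime) (hf : 1 ≤ f) (hn : 4 ≤ n) (hne : Even n) (hr : Prim p (n * f) r)
    (hS : Alt p f n r S) :
    ∃ N, 2 * N = n * f ∧ 2 * f ≤ N ∧ 2 ≤ N ∧ (r = 5 → N = 2) ∧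
      ((∃ (E : Type) (_ : Field E) (_ : Fintype E), Fintype.card E = p ^ N ∧
        Nonempty (S ≃* Matrix.ProjectiveSpecialLinearGroup (Fin 2) E)) ∨
      (p ≠ 2 ∧ f = 1 ∧ N = 2 ∧ Nat.card S = 60)) := by
  obtain ⟨k, hk⟩ := hne
  have h2 : 2 * (k * f) = n * f := by rw [hk]; ring
  have h3 : 2 * f ≤ k * f := Nat.mul_le_mul_right f (by omega)
  have h5 : r = 5 → k * f = 2 := by
    rintro rfl
    have h6 := (hr.dvd_iff 4).1 (by
      have : Fact (Nat.Prime 5) := ⟨hr.prime⟩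
      have h7 : ((p : ℕ) : ZMod 5) ≠ 0 := fun h8 => hr.not_dvd ((ZMod.natCast_eq_zero_iff p 5).1 h8)
      have h8 := ZMod.pow_card_sub_one_eq_one h7
      have h9 : 1 ≤ p ^ 4 := Nat.one_le_pow _ _ hp.pos
      rw [← ZMod.natCast_eq_zero_iff, Nat.cast_sub h9, Nat.cast_pow]
      have h10 : ((p : ℕ) : ZMod 5) ^ 4 = 1 := h8
      rw [h10, Nat.cast_one, sub_self])
    have h7 := Nat.le_of_dvd (by norm_num) h6
    omega
  refine ⟨k * f, h2, h3, by omega, h5, ?_⟩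
  rcases hS with ⟨E, _, _, hE, he⟩ | ⟨h, ⟨e⟩⟩
  · left
    refine ⟨E, inferInstance, inferInstance, ?_, he⟩
    rw [← h2, mul_comm 2, pow_mul] at hE
    exact Nat.pow_left_injective (by norm_num : (2 : ℕ) ≠ 0) hE
  · by_cases hp2 : p = 2
    · left
      have hN2 := h5 h
      subst hp2
      have hK : Finite (GaloisField 2 2) := inferInstance
      letI : Fintype (GaloisField 2 2) := Fintype.ofFinite _
      have h4 : Fintype.card (GaloisField 2 2) = 4 := by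
        rw [← Nat.card_eq_fintype_card, GaloisField.card 2 2 (by norm_num)]
        norm_num
      obtain ⟨e'⟩ := S0252.result h4
      refine ⟨GaloisField 2 2, inferInstance, inferInstance, ?_, ⟨e.trans e'.symm⟩⟩
      rw [h4, hN2]
      norm_num
    · right
      have hN2 := h5 h
      refine ⟨hp2, by omega, hN2, ?_⟩
      rw [Nat.card_congr e.toEquiv, card_alt5]

/-- **R1** -/
theorem kill1 [IsSimpleGroup S] (h : Fac T A M S 2) {p f n r m : ℕ} (hp : p.Prime) (hf : 1 ≤ f) (hn : 4 ≤ n)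
    (hne : Even n) (hr : Prim p (n * f) r) (hrS : r ∣ Nat.card S) (hS : Alt p f n r S) (eA : A ≃* (Fin 2 → S))
    (hno : ∀ x : A, (x : T) ∈ M → orderOf x = r → eA x 0 ≠ 1 ∧ eA x 1 ≠ 1)
    (hTM : M.index * m = p ^ (n * f) * (p ^ (n * f) - 1)) (hm : m ∣ 2 * f * Nat.gcd 2 (p - 1)) : False := by
  obtain ⟨N, hN, hfN, hN2, h5, hE⟩ := hS.exists_field hp hf hn hne hr
  have hpp : p ^ (n * f) = (p ^ N) ^ 2 := by rw [← pow_mul, mul_comm N 2, hN]
  rw [hpp] at hTM
  rw [← gcd_two_sub hp (show N ≠ 0 by omega)] at hm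
  rw [← hN] at hr
  have hD := card_mul_eq h
  rcases hE with ⟨E, _, _, hE, ⟨e⟩⟩ | ⟨hp2, hf1, hN', h60⟩
  · have hX : ¬ r ∣ (p ^ N) ^ 2 := by rw [← pow_mul]; exact hr.not_dvd_pow _
    have hS' : Nat.card S * Nat.gcd 2 (p ^ N - 1) = p ^ N * ((p ^ N) ^ 2 - 1) := by
      rw [Nat.card_congr e.toEquiv, ← hE]
      exact PSL2Basic.card_PSL2_gcd E
    exact num1 hp hf hfN hS' hTM hm hD h5 (card_inter h hp hN2 hr hrS hE e eA hno hX hTM)
  · subst hf1 hN'
    rw [h60] at hD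
    apply hp2
    apply pow_three_dvd hp
    have h1 : p ^ 3 ∣ M.index * m := by
      rw [hTM, ← pow_mul]
      exact (pow_dvd_pow p (by norm_num)).mul_right _
    have hg : Nat.gcd 2 (p ^ 2 - 1) = 2 := by
      apply Nat.gcd_eq_left
      exact (Nat.Odd.sub_odd (hp.odd_of_ne_two hp2).pow odd_one).two_dvd
    have h2 : p.Coprime m := by
      rw [hp.coprime_iff_not_dvd]
      intro h3
      have h4 : p ∣ 2 * 1 * 2 := by
        rw [hg] at hm
        exact h3.trans hm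
      have h6 : p ∣ 2 ^ 2 := h4
      exact hp2 ((Nat.prime_dvd_prime_iff_eq hp Nat.prime_two).1 (hp.dvd_of_dvd_pow h6))
    have h3 := (Nat.Coprime.pow_left 3 h2).dvd_of_dvd_mul_right h1
    exact h3.trans ⟨_, hD.symm⟩

/-- **R2** -/
theorem kill2 [IsSimpleGroup S] (h : Fac T A M S 2) {p f n r m : ℕ} (hp : p.Prime) (hf : 1 ≤ f) (hn : 4 ≤ n)
    (hne : Even n) (hr : Prim p (n * f) r) (hrS : r ∣ Nat.card S) (hS : Alt p f n r S) (eA : A ≃* (Fin 2 → S))
    (hno : ∀ x : A, (x : T) ∈ M → orderOf x = r → eA x 0 ≠ 1 ∧ eA x 1 ≠ 1)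
    (hTM : M.index * (Nat.gcd 2 (p - 1) * m) = p ^ ((n - 1) * f) * (p ^ (n * f) - 1))
    (hm : m ∣ Nat.gcd 2 (p - 1) * f) : False := by
  obtain ⟨N, hN, hfN, hN2, h5, hE⟩ := hS.exists_field hp hf hn hne hr
  have hpp : p ^ (n * f) = (p ^ N) ^ 2 := by rw [← pow_mul, mul_comm N 2, hN]
  have hpq : (n - 1) * f = 2 * N - f := by rw [Nat.sub_mul, one_mul, hN]
  rw [hpp, hpq] at hTM
  rw [← gcd_two_sub hp (show N ≠ 0 by omega)] at hm hTM
  rw [← hN] at hr
  have hD := card_mul_eq h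
  rcases hE with ⟨E, _, _, hE, ⟨e⟩⟩ | ⟨hp2, hf1, hN', h60⟩
  · have hS' : Nat.card S * Nat.gcd 2 (p ^ N - 1) = p ^ N * ((p ^ N) ^ 2 - 1) := by
      rw [Nat.card_congr e.toEquiv, ← hE]
      exact PSL2Basic.card_PSL2_gcd E
    exact num2 hp hf hfN hS' hTM hm hD h5 (card_inter h hp hN2 hr hrS hE e eA hno (hr.not_dvd_pow _) hTM)
  · subst hf1 hN'
    rw [h60] at hD
    apply hp2
    apply pow_three_dvd hp
    have hg : Nat.gcd 2 (p ^ 2 - 1) = 2 := by
      apply Nat.gcd_eq_left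
      exact (Nat.Odd.sub_odd (hp.odd_of_ne_two hp2).pow odd_one).two_dvd
    rw [hg] at hm hTM
    have h1 : p ^ 3 ∣ M.index * (2 * m) := by
      rw [hTM]
      exact (pow_dvd_pow p (by norm_num)).mul_right _
    have hp2' : ¬ p ∣ 2 := fun h6 => hp2 ((Nat.prime_dvd_prime_iff_eq hp Nat.prime_two).1 h6)
    have h2 : p.Coprime (2 * m) := by
      rw [hp.coprime_iff_not_dvd]
      intro h3
      rcases (Nat.Prime.dvd_mul hp).1 h3 with h4 | h4
      · exact hp2' h4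
      · rw [mul_one] at hm
        exact hp2' (h4.trans hm)
    have h3 := (Nat.Coprime.pow_left 3 h2).dvd_of_dvd_mul_right h1
    exact h3.trans ⟨_, hD.symm⟩

end Cfsg.Agent.H946.DK
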