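import Cfsg.Agent.H951.Lin

/-!
# Fixed point free operators of prime order `r` on a space of dimension `2 n`, `n = ord_r(q)` (helper946, for S3679)

* `cyclic_or_homog` : `V = F[x] v` for some `v`, or an irreducible polynomial of degree `n` kills `x`;
* `commute_of_cyclic` : in the first case the operators commuting with `x` commute.
-/

set_option autoImplicit false

namespace Cfsg.Agent.H946.DK

open Module Polynomial Cfsg.Agent.H951

variable {F : Type*} [Field F] {V : Type*} [AddCommGroup V] [Module F V] {x a b : Module.End F V}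

theorem aeval_comm (ha : Commute a x) (P : F[X]) (v : V) : a (aeval x P v) = aeval x P (a v) := by
  have h : Commute a (aeval x P) := by
    induction P using Polynomial.induction_on' with
    | add p q hp hq => rw [map_add]; exact hp.add_right hq
    | monomial n c =>
      rw [aeval_monomial]
      exact (show Commute a (algebraMap F (Module.End F V) c) from (Algebra.commutes c a).symm).mul_right (ha.pow_right n)
  exact LinearMap.congr_fun h.eq v

theorem commute_of_cyclic {v : V} (hv : ∀ w : V, ∃ P : F[X], aeval x P v = w) (ha : Commute a x)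
    (hb : Commute b x) : Commute a b := by
  obtain ⟨P, hP⟩ := hv (a v)
  obtain ⟨Q, hQ⟩ := hv (b v)
  refine LinearMap.ext fun w => ?_
  obtain ⟨R, rfl⟩ := hv w
  show a (b (aeval x R v)) = b (a (aeval x R v))
  rw [aeval_comm hb, aeval_comm ha, aeval_comm ha, aeval_comm hb, ← hP, ← hQ, aeval_comm ha, aeval_comm hb, ← hP, ← hQ,
    ← Module.End.mul_apply (aeval x Q), ← Module.End.mul_apply (aeval x P), ← map_mul, ← map_mul, mul_comm]

/-- the cyclic subspace -/
noncomputable def cyc (x : Module.End F V) (v : V) : Submodule F V :=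
  LinearMap.range ((LinearMap.applyₗ v).comp (aeval x : F[X] →ₐ[F] Module.End F V).toLinearMap)

theorem mem_cyc {v w : V} : w ∈ cyc x v ↔ ∃ P : F[X], aeval x P v = w := by
  rw [cyc, LinearMap.mem_range]
  rfl

theorem inv_cyc (v : V) : Inv x (cyc x v) := by
  intro w hw
  obtain ⟨P, rfl⟩ := mem_cyc.1 hw
  exact mem_cyc.2 ⟨X * P, by rw [map_mul, aeval_X, Module.End.mul_apply]⟩

theorem self_mem_cyc (v : V) : v ∈ cyc x v := mem_cyc.2 ⟨1, by simp⟩

variable [FiniteDimensional F V] [Fintype F] {r n : ℕ} [hrp : Fact r.Prime]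

include hrp in
theorem le_finrank (hx : x ^ r = 1) (hf : fx x = ⊥) (hn : orderOf (Fintype.card F : ZMod r) = n) {W : Submodule F V}
    (hW : Inv x W) (h0 : W ≠ ⊥) : n ≤ finrank F W := by
  have h1 := ord_dvd_finrank hx hW (by rw [hf, inf_bot_eq])
  rw [hn] at h1
  refine Nat.le_of_dvd (Nat.pos_of_ne_zero fun h => h0 (Submodule.finrank_eq_zero.1 h)) h1

theorem cyclic_or_homog (hr : (r : F) ≠ 0) (hx : x ^ r = 1) (hf : fx x = ⊥)
    (hn : orderOf (Fintype.card F : ZMod r) = n) (hn0 : 0 < n) (hV : finrank F V = 2 * n) :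
    (∃ v, ∀ w : V, ∃ P : F[X], aeval x P v = w) ∨
      ∃ g : F[X], Irreducible g ∧ g.natDegree = n ∧ aeval x g = 0 := by
  have hcm : cm x = ⊤ := by
    have := (isCompl_fx_cm hr hx).sup_eq_top
    rwa [hf, bot_sup_eq] at this
  have hcy : ∀ v : V, aeval x (cyclotomic r F) v = 0 := fun v =>
    cyclotomic_apply_of_mem_cm hx (by rw [hcm]; trivial)
  have hcy0 : cyclotomic r F ≠ 0 := cyclotomic_ne_zero r F
  have hnt : Nontrivial V := by
    rw [← Module.finrank_pos_iff (R := F)]
    omega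
  obtain ⟨v₀, hv₀⟩ := exists_ne (0 : V)
  obtain ⟨g, hg, hgd, u, -, hu0, hgu⟩ := exists_irreducible_factor (x := x) (W := ⊤) inv_top (cyclotomic r F) hcy0 v₀
    trivial hv₀ (hcy v₀)
  by_cases hK : LinearMap.ker (aeval x g) = ⊤
  · right
    exact ⟨g, hg, by rw [natDegree_factor hr hg hgd, hn], LinearMap.ker_eq_top.1 hK⟩
  left
  obtain ⟨T, hT, -, hKT, hKT'⟩ := exists_rel_compl (semisimple_of_pow hr hx) (inv_ker_aeval (x := x) g) inv_top le_top
  have hT0 : T ≠ ⊥ := by
    rintro rfl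
    rw [sup_bot_eq] at hKT'
    exact hK hKT'
  obtain ⟨t, ht, ht0⟩ := (Submodule.ne_bot_iff _).1 hT0
  obtain ⟨g', hg', hgd', u', hu', hu'0, hgu'⟩ := exists_irreducible_factor hT (cyclotomic r F) hcy0 t ht ht0 (hcy t)
  have hgT : ∀ w ∈ T, w ≠ 0 → aeval x g w ≠ 0 := by
    intro w hw hw0 h
    apply hw0
    rw [← Submodule.mem_bot F, ← hKT]
    exact ⟨LinearMap.mem_ker.2 h, hw⟩
  refine ⟨u + u', fun w => ?_⟩
  rw [← mem_cyc]
  -- the intersection with `T`
  have h1 : n ≤ finrank F ↥(cyc x (u + u') ⊓ T) := by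
    refine le_finrank hx hf hn ((inv_cyc _).inf hT) ?_
    intro h
    apply hgT u' hu' hu'0
    rw [← Submodule.mem_bot F, ← h]
    refine ⟨mem_cyc.2 ⟨g, ?_⟩, hT.aeval g u' hu'⟩
    rw [map_add, hgu, zero_add]
  have hnd : ¬ g' ∣ g := by
    intro hd
    obtain ⟨c, hc⟩ := hd
    apply hgT u' hu' hu'0
    rw [hc, mul_comm, map_mul, Module.End.mul_apply, hgu', map_zero]
  have h2 : n ≤ finrank F ↥(cyc x (u + u') ⊓ LinearMap.ker (aeval x g)) := by
    refine le_finrank hx hf hn ((inv_cyc _).inf (inv_ker_aeval g)) ?_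
    intro h
    have h3 : aeval x g' u = 0 := by
      rw [← Submodule.mem_bot F, ← h]
      refine ⟨mem_cyc.2 ⟨g', ?_⟩, inv_ker_aeval (x := x) g |>.aeval g' u (LinearMap.mem_ker.2 hgu)⟩
      rw [map_add, hgu', add_zero]
    obtain ⟨c, d, hcd⟩ := hg'.coprime_iff_not_dvd.2 hnd
    apply hu0
    have h4 : aeval x (c * g' + d * g) u = u := by rw [hcd]; simp
    rw [← h4, map_add, map_mul, map_mul, LinearMap.add_apply, Module.End.mul_apply, Module.End.mul_apply, h3, hgu,
      map_zero, map_zero, add_zero]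
  have h3 : (cyc x (u + u') ⊓ T) ⊓ (cyc x (u + u') ⊓ LinearMap.ker (aeval x g)) = ⊥ := by
    rw [eq_bot_iff, ← hKT]
    exact fun v hv => ⟨hv.2.2, hv.1.2⟩
  have h4 := finrank_sup_of_disj h3
  have h5 : (cyc x (u + u') ⊓ T) ⊔ (cyc x (u + u') ⊓ LinearMap.ker (aeval x g)) ≤ cyc x (u + u') :=
    sup_le inf_le_left inf_le_left
  have h6 := Submodule.finrank_mono h5
  have h7 : cyc x (u + u') = ⊤ := Submodule.eq_top_of_finrank_eq (le_antisymm (Submodule.finrank_le _) (by omega))
  rw [h7]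
  trivial

end Cfsg.Agent.H946.DK
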