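import Cfsg.Agent.H946.DK.Plane
import Cfsg.Agent.H946.DK.Dick

/-!
# Simple groups commuting with an element of order `r`, `ord_r(q) = n`, in dimension `2 n`, `2 n + 1`
(helper946, DK-lin for S3679)

`G` a group of operators of `V` preserving a nondegenerate biadditive `B`, `π : G → T` onto with scalar central kernel of
order prime to `r`, `g ∈ G` of order `r` with `dim [V, g] = 2 n`, `dim V ≤ 2 n + 1`, `r` a primitive prime of
`p ^ (n f) - 1`, `|F| = p ^ f`; a non-abelian simple group `S ≤ T` commuting with `π g`, `r ∣ |S|`, is `PSL(2, E)`,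
`|E| ^ 2 = p ^ (n f)`, or `A₅`, `r = 5` (`dk_lin`).
-/

set_option autoImplicit false

namespace Cfsg.Agent.H946.DK

open Module Polynomial Cfsg.Agent.H951 Cfsg.Agent.H436

/-- the order of `q = p ^ f` modulo a primitive prime of `p ^ (n f) - 1` -/
theorem orderOf_of_prim {p f n r : ℕ} (hp : 2 ≤ p) (hf : 0 < f) (h : Prim p (n * f) r) :
    orderOf ((p ^ f : ℕ) : ZMod r) = n := by
  have key : ∀ k : ℕ, ((p ^ f : ℕ) : ZMod r) ^ k = 1 ↔ n ∣ k := by
    intro k
    have h1 : 1 ≤ p ^ (k * f) := Nat.one_le_pow _ _ (by omega)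
    rw [← Nat.cast_pow, ← pow_mul, mul_comm f k]
    rw [← Nat.mul_dvd_mul_iff_right hf, ← h.dvd_iff, ← ZMod.natCast_eq_zero_iff, Nat.cast_sub h1, Nat.cast_one,
      sub_eq_zero]
  apply Nat.dvd_antisymm
  · rw [orderOf_dvd_iff_pow_eq_one, key]
  · rw [← key, pow_orderOf_eq_one]

section comm

variable {G T : Type*} [Group G] [Group T]

/-- lifts of elements commuting with `π g` commute with `g` -/
theorem comm_lift [Finite G] (π : G →* T) (hK : π.ker ≤ Subgroup.center G) {r : ℕ} (hr : r.Prime)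
    (hrK : ¬ r ∣ Nat.card π.ker) {g h : G} (hg : g ^ r = 1) (hc : π h * π g = π g * π h) : h * g = g * h := by
  have h3 : h * g * h⁻¹ * g⁻¹ ∈ π.ker := by
    rw [MonoidHom.mem_ker, map_mul, map_mul, map_mul, map_inv, map_inv, hc]
    group
  have hcen := Subgroup.mem_center_iff.1 (hK h3)
  set c := h * g * h⁻¹ * g⁻¹ with hcdef
  have h4 : h * g * h⁻¹ = c * g := by rw [hcdef]; group
  have h5 : (h * g * h⁻¹) ^ r = 1 := by rw [conj_pow, hg, mul_one, mul_inv_cancel]
  have h6 : c ^ r = 1 := by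
    have hc' : Commute c g := (hcen g).symm
    rw [h4, hc'.mul_pow, hg, mul_one] at h5
    exact h5
  have h7 : c = 1 := by
    have h8 : (⟨c, h3⟩ : π.ker) = 1 := by
      have h9 : orderOf (⟨c, h3⟩ : π.ker) ∣ r := orderOf_dvd_of_pow_eq_one (Subtype.ext h6)
      have h10 : orderOf (⟨c, h3⟩ : π.ker) ∣ Nat.card π.ker := orderOf_dvd_natCard _
      rcases (Nat.dvd_prime hr).1 h9 with h11 | h11
      · exact orderOf_eq_one_iff.1 h11
      · exact absurd (h11 ▸ h10) hrK
    exact congrArg Subtype.val h8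
  rw [hcdef, mul_inv_eq_one, mul_inv_eq_iff_eq_mul] at h7
  exact h7

end comm

/-- **DK-lin** -/
theorem dk_lin {F : Type*} [Field F] [Fintype F] {V : Type*} [AddCommGroup V] [Module F V] [FiniteDimensional F V]
    {p f n r : ℕ} (hp : p.Prime) (hF : Fintype.card F = p ^ f) (hn : 3 ≤ n) (hr : Prim p (n * f) r)
    (hV : finrank F V ≤ 2 * n + 1) {G T : Type*} [Group G] [Group T] [Finite G] (π : G →* T)
    (hπ : Function.Surjective π) (hK : π.ker ≤ Subgroup.center G) (hrK : ¬ r ∣ Nat.card π.ker)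
    (ρ : G →* Module.End F V) (hρ : Function.Injective ρ) (hsc : ∀ k ∈ π.ker, ∃ c : F, ρ k = c • 1)
    {C : Type*} [AddCommGroup C] {B : V → V → C} (hl : ∀ u v w, B (u + v) w = B u w + B v w)
    (hr' : ∀ u v w, B w (u + v) = B w u + B w v) (hnd : ∀ u, u ≠ 0 → ∃ v, B u v ≠ 0)
    (hBρ : ∀ g u v, B (ρ g u) (ρ g v) = B u v)
    {g : G} (hg : g ^ r = 1) (hgd : finrank F ↥(cm (ρ g)) = 2 * n)
    {S : Type*} [Group S] [Finite S] [IsSimpleGroup S] (hna : ¬ ∀ a b : S, a * b = b * a) (φ : S →* T)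
    (hφ : Function.Injective φ) (hφg : ∀ s, φ s * π g = π g * φ s) (hrS : r ∣ Nat.card S) :
    (∃ (E : Type) (_ : Field E) (_ : Fintype E), Fintype.card E ^ 2 = p ^ (n * f) ∧
      Nonempty (S ≃* Matrix.ProjectiveSpecialLinearGroup (Fin 2) E)) ∨
    (r = 5 ∧ Nonempty (S ≃* alternatingGroup (Fin 5))) := by
  have hf : 0 < f := by
    rcases Nat.eq_zero_or_pos f with h | h
    · exfalso
      rw [h, pow_zero] at hF
      have : 1 < Fintype.card F := Fintype.one_lt_card
      omega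
    · exact h
  have hnf : 3 ≤ n * f := hn.trans (Nat.le_mul_of_pos_right n hf)
  have hrp : Fact r.Prime := ⟨hr.prime⟩
  have hr2 : r ≠ 2 := by
    have := prim_lt hp.two_le hnf hr
    omega
  have hr0 : (r : F) ≠ 0 := by
    intro h
    obtain ⟨l, hl⟩ := CharP.exists F
    obtain ⟨k, hlp, hk⟩ := FiniteField.card F l
    have h1 : l ∣ p ^ f := by
      rw [← hF, hk]
      exact dvd_pow_self l k.2.ne'
    have h2 := (Nat.prime_dvd_prime_iff_eq hlp hp).1 (hlp.dvd_of_dvd_pow h1)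
    have h3 : l ∣ r := (CharP.cast_eq_zero_iff F l r).1 h
    have h4 := (Nat.prime_dvd_prime_iff_eq hlp hr.prime).1 h3
    exact hr.not_dvd (by rw [← h2, h4])
  have hxr : (ρ g) ^ r = 1 := by rw [← map_pow, hg, map_one]
  have hcompl := isCompl_fx_cm hr0 hxr
  have hdim := finrank_fx_add_cm hr0 hxr
  rw [hgd] at hdim
  -- the group
  let H : Subgroup G := φ.range.comap π
  have hHg : ∀ h : H, (h : G) * g = g * h := by
    rintro ⟨h, s, hs⟩
    refine comm_lift π hK hr.prime hrK hg ?_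
    rw [← hs]
    exact hφg s
  have hHx : ∀ h : H, Commute (ρ h) (ρ g) := fun h => by
    show ρ h * ρ g = ρ g * ρ h
    rw [← map_mul, ← map_mul, hHg]
  have hinv : ∀ h : H, Inv (ρ h) (cm (ρ g)) := by
    intro h v hv
    obtain ⟨w, rfl⟩ := mem_cm.1 hv
    refine mem_cm.2 ⟨ρ h w, ?_⟩
    rw [map_sub]
    have : ρ h (ρ g w) = ρ g (ρ h w) := LinearMap.congr_fun (hHx h).eq w
    rw [this]
  let e : S ≃* φ.range := MonoidHom.ofInjective hφ
  let π' : H →* φ.range :=
    { toFun := fun h => ⟨π h, h.2⟩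
      map_one' := Subtype.ext (map_one π)
      map_mul' := fun a b => Subtype.ext (map_mul π _ _) }
  let α : H →* S := e.symm.toMonoidHom.comp π'
  have hα1 : ∀ h : H, φ (α h) = π h := fun h => congrArg Subtype.val (e.apply_symm_apply (π' h))
  have hα : Function.Surjective α := by
    intro s
    obtain ⟨h, hh⟩ := hπ (φ s)
    refine ⟨⟨h, ⟨s, hh.symm⟩⟩, hφ ?_⟩
    rw [hα1]
    exact hh
  -- the restriction to the commutator space
  let ρ' : H →* Module.End F ↥(cm (ρ g)) :=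
    { toFun := fun h => (ρ h).restrict (hinv h)
      map_one' := LinearMap.ext fun v => Subtype.ext (by
        show ρ (1 : G) v = v
        rw [map_one]; rfl)
      map_mul' := fun a b => LinearMap.ext fun v => Subtype.ext (by
        show ρ ((a : G) * b) v = ρ a (ρ b v)
        rw [map_mul]; rfl) }
  have hρ' : ∀ (h : H) (v : ↥(cm (ρ g))), ((ρ' h v : ↥(cm (ρ g))) : V) = ρ h v := fun h v => rfl
  let x : Module.End F ↥(cm (ρ g)) := (ρ g).restrict inv_cm
  have hx : ∀ v : ↥(cm (ρ g)), ((x v : ↥(cm (ρ g))) : V) = ρ g v := fun v => rfl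
  have hxp : ∀ (k : ℕ) (v : ↥(cm (ρ g))), (((x ^ k) v : ↥(cm (ρ g))) : V) = ((ρ g) ^ k) v := by
    intro k
    induction k with
    | zero => intro v; rfl
    | succ k ih => intro v; rw [pow_succ, pow_succ, Module.End.mul_apply, Module.End.mul_apply, ih, hx]
  have hxr' : x ^ r = 1 := LinearMap.ext fun v => Subtype.ext (by rw [hxp, hxr]; rfl)
  have hfx : fx x = ⊥ := by
    rw [eq_bot_iff]
    intro v hv
    have h1 : ρ g v = v := congrArg Subtype.val (mem_fx.1 hv)
    have h2 : (v : V) ∈ fx (ρ g) ⊓ cm (ρ g) := ⟨mem_fx.2 h1, v.2⟩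
    rw [hcompl.inf_eq_bot, Submodule.mem_bot] at h2
    rw [Submodule.mem_bot]
    exact Subtype.ext h2
  have hord : orderOf (Fintype.card F : ZMod r) = n := by
    rw [hF]
    exact orderOf_of_prim hp.two_le hf hr
  -- scalars on the fixed space
  have hinvf : ∀ h : H, ∀ v ∈ fx (ρ g), ρ h v ∈ fx (ρ g) := by
    intro h v hv
    rw [mem_fx] at hv ⊢
    have : ρ g (ρ h v) = ρ h (ρ g v) := LinearMap.congr_fun (hHx h).symm.eq v
    rw [this, hv]
  have hfx1 : ∀ a b : H, ∀ v ∈ fx (ρ g), ρ a (ρ b v) = ρ b (ρ a v) := by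
    intro a b v hv
    by_cases hv0 : v = 0
    · simp [hv0]
    have h1 : finrank F ↥(fx (ρ g)) = 1 := by
      have h2 : 0 < finrank F ↥(fx (ρ g)) := by
        rw [Module.finrank_pos_iff]
        exact ⟨⟨⟨v, hv⟩, 0, fun h => hv0 (congrArg Subtype.val h)⟩⟩
      omega
    have h3 : ∀ w ∈ fx (ρ g), ∃ c : F, w = c • v := by
      intro w hw
      obtain ⟨c, hc⟩ := (finrank_eq_one_iff_of_nonzero' (⟨v, hv⟩ : ↥(fx (ρ g)))
        (fun h => hv0 (congrArg Subtype.val h))).1 h1 ⟨w, hw⟩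
      exact ⟨c, (congrArg Subtype.val hc).symm⟩
    obtain ⟨c, hc⟩ := h3 _ (hinvf a v hv)
    obtain ⟨d, hd⟩ := h3 _ (hinvf b v hv)
    rw [hc, hd, map_smul, map_smul, hc, hd, smul_smul, smul_smul, mul_comm]
  have hcen : ∀ s : S, (∀ t : S, s * t = t * s) → s = 1 := by
    intro s hs
    have hc : Subgroup.center S = ⊥ := by
      rcases (inferInstance : (Subgroup.center S).Normal).eq_bot_or_eq_top with h | h
      · exact h
      · exact absurd (fun a c => (Subgroup.mem_center_iff.1 (h ▸ Subgroup.mem_top c : c ∈ Subgroup.center S) a)) hna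
    rw [← Subgroup.mem_bot, ← hc, Subgroup.mem_center_iff]
    exact fun t => (hs t).symm
  have h1 : ∀ h : H, ρ' h = 1 → α h = 1 := by
    intro h hh
    apply hcen
    intro t
    obtain ⟨k, rfl⟩ := hα t
    rw [← map_mul, ← map_mul]
    congr 1
    apply Subtype.ext
    apply hρ
    show ρ ((h : G) * k) = ρ ((k : G) * h)
    rw [map_mul, map_mul]
    refine LinearMap.ext fun v => ?_
    have hv : v ∈ fx (ρ g) ⊔ cm (ρ g) := by rw [hcompl.sup_eq_top]; trivial
    obtain ⟨a, ha, b, hb, rfl⟩ := Submodule.mem_sup.1 hv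
    have hid : ∀ w ∈ cm (ρ g), ρ h w = w := fun w hw => by
      have := congrArg Subtype.val (LinearMap.congr_fun hh ⟨w, hw⟩)
      exact this
    rw [map_add, map_add, Module.End.mul_apply, Module.End.mul_apply, Module.End.mul_apply, Module.End.mul_apply,
      hfx1 h k a ha, hid b hb, hid _ (hinv k b hb)]
  have h2 : ∀ h : H, α h = 1 → ∃ c : F, ρ' h = c • 1 := by
    intro h hh
    have h3 : (h : G) ∈ π.ker := by
      rw [MonoidHom.mem_ker, ← hα1, hh, map_one]
    obtain ⟨c, hc⟩ := hsc _ h3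
    refine ⟨c, LinearMap.ext fun v => Subtype.ext ?_⟩
    rw [hρ', hc]
    rfl
  -- the form
  have hB0 : ∀ u ∈ cm (ρ g), ∀ v ∈ fx (ρ g), B u v = 0 := by
    intro u hu v hv
    obtain ⟨w, rfl⟩ := mem_cm.1 hu
    have h3 := hBρ g w v
    rw [mem_fx.1 hv] at h3
    rw [sub_eq_add_neg, hl, B_neg_left hl, h3, add_neg_cancel]
  have hBne : ∃ u v : ↥(cm (ρ g)), B u v ≠ 0 := by
    have hpos : 0 < finrank F ↥(cm (ρ g)) := by omega
    rw [Module.finrank_pos_iff] at hpos
    obtain ⟨u, hu⟩ := exists_ne (0 : ↥(cm (ρ g)))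
    obtain ⟨v, hv⟩ := hnd u (fun h => hu (Subtype.ext h))
    have hv' : v ∈ fx (ρ g) ⊔ cm (ρ g) := by rw [hcompl.sup_eq_top]; trivial
    obtain ⟨a, ha, b, hb, rfl⟩ := Submodule.mem_sup.1 hv'
    refine ⟨u, ⟨b, hb⟩, fun h => hv ?_⟩
    rw [hr', hB0 u u.2 a ha, zero_add]
    exact h
  obtain ⟨q, hq1, hq2, hcard, ψ, hψ, htop⟩ := exists_plane (V := ↥(cm (ρ g))) (x := x) hr2 hr0 hxr' hfx hord
    (by omega) hgd hna ρ' (fun h => LinearMap.ext fun v => Subtype.ext (by
      show ρ h (ρ g v) = ρ g (ρ h v)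
      exact LinearMap.congr_fun (hHx h).eq v)) α hα h1 h2 (C := C) (B := fun u v => B u v)
    (fun u v w => hl _ _ _) (fun u v w => hr' _ _ _) hBne (fun h u v => hBρ h u v) (fun u v => hBρ g u v)
  refine simple_of_prim hp ?_ hnf hr hna ψ hψ htop hrS
  rw [hcard, hF, ← pow_mul, mul_comm]

end Cfsg.Agent.H946.DK
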